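import Cfsg.Agent.H128.CV.PsuPlug
import Cfsg.Agent.H356.TU.Sgn

/-!
# S3442 [O3]: `PSU_4(q)`, final form
-/

set_option autoImplicit false

namespace Cfsg.Agent.H128.CV

open Cfsg.Agent.H373.CV

universe u

/-- **the row**: `PSU_4(q)`, `q` a power of `p ≥ 5`, `q ≡ 1 (mod 4)` -/
theorem hit_psu4' (F : Type) [Field F] [Fintype F] (p : ℕ) [Fact p.Prime] [CharP F p] {q : ℕ}
    (hF : Fintype.card F = q ^ 2) (hq : q % 4 = 1) (hp5 : 5 ≤ p) : Hit.{u, 0} p (Cfsg.PSU 4 F q) :=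
  hit_psu4 F p hF hq hp5 fun _ hf => Cfsg.Agent.H356.TU.clsSU hF (by norm_num) hf

end Cfsg.Agent.H128.CV
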